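import Cfsg.Agent.H982.EP.Trans
import Cfsg.Agent.H883.Bridge
import Cfsg.Agent.LieClassical.PomegaCard

/-!
# S3499: the target `OrthRes12` from the rows of the dimensions 7 ... 12 (helper982)
-/

set_option autoImplicit false

namespace Cfsg.Agent.H982.EP

open Subgroup Cfsg Cfsg.Geo Cfsg.Agent.H419.EP Cfsg.Agent.H284
open Cfsg.Agent.LieClassical.OrthCore
open scoped MatrixGroups Matrix

/-- the row of `Ω_{2k+1}(q)`, `q` odd -/
def RowOdd (k : ℕ) : Prop := ∀ {Q : Type} [Group Q] [Finite Q], IsSimpleGroup Q → ∀ {A : Subgroup Q}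
    {Γ : Subgroup (MulAut Q)}, EPT A Γ → ∀ {F : Type} [Field F] [Fintype F], Odd (Fintype.card F) →
    ∀ (m : Model Q (omegaGL (quadFormOdd k F))), InOrthogonalResidualClass (m.hat A) → False

/-- the row of `Ω_n^+(q)` -/
def RowPlus (n : ℕ) : Prop := ∀ {Q : Type} [Group Q] [Finite Q], IsSimpleGroup Q → ∀ {A : Subgroup Q}
    {Γ : Subgroup (MulAut Q)}, EPT A Γ → ∀ {F : Type} [Field F] [Fintype F] {Qf : (Fin n → F) → F}
    (m : Model Q (omegaGL Qf)), IsNondegenerateQuadraticForm Qf → IsPlusTypeOn Qf ⊤ →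
    InOrthogonalResidualClass (m.hat A) → False

/-- the row of `Ω_n^-(q)` -/
def RowMinus (n : ℕ) : Prop := ∀ {Q : Type} [Group Q] [Finite Q], IsSimpleGroup Q → ∀ {A : Subgroup Q}
    {Γ : Subgroup (MulAut Q)}, EPT A Γ → ∀ {F : Type} [Field F] [Fintype F] {Qf : (Fin n → F) → F}
    (m : Model Q (omegaGL Qf)), IsNondegenerateQuadraticForm Qf → ¬ IsPlusTypeOn Qf ⊤ →
    InOrthogonalResidualClass (m.hat A) → False

/-- the target in dimension `n` -/
def RowDim (n : ℕ) : Prop := ∀ {Q : Type} [Group Q] [Finite Q], IsSimpleGroup Q → ∀ {A : Subgroup Q}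
    {Γ : Subgroup (MulAut Q)}, EPT A Γ → ∀ {F : Type} [Field F] [Fintype F] {ι : Type} [Fintype ι] [DecidableEq ι]
    {Qf : (ι → F) → F} (m : Model Q (omegaGL Qf)), Fintype.card ι = n →
    IsNondegenerateQuadraticForm Qf → InOrthogonalResidualClass (m.hat A) → False

theorem two_ne_of_sim {F : Type*} [Field F] {V : Type*} [AddCommGroup V] [Module F V] {Q' : QuadraticForm F V}
    (hQ : Nondeg Q') {k : ℕ} (h : GenOrth.Sim Q' (Cfsg.quadFormOdd k F)) : (2 : F) ≠ 0 := by
  intro h2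
  obtain ⟨c, hc, j, hj⟩ := h
  have h1 : j (Pi.single (.inl ()) 1) = 0 := by
    apply hQ
    intro y
    obtain ⟨x, rfl⟩ := j.surjective y
    rw [QuadraticMap.polar, ← map_add, hj, hj, hj]
    have h3 : Cfsg.quadFormOdd k F (Pi.single (.inl ()) 1 + x) = Cfsg.quadFormOdd k F (Pi.single (.inl ()) 1) +
        Cfsg.quadFormOdd k F x := by
      rw [LieClassical.OrthForms.quadFormOdd_apply, LieClassical.OrthForms.quadFormOdd_apply,
        LieClassical.OrthForms.quadFormOdd_apply]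
      simp
      linear_combination x (.inl ()) * h2
    rw [h3]
    ring
  have h5 : (Pi.single (.inl ()) 1 : Unit ⊕ (Fin k ⊕ Fin k) → F) = 0 := (map_eq_zero_iff j j.injective).1 h1
  have h6 := congrFun h5 (.inl ())
  simp at h6

theorem dim_of_odd {k : ℕ} (h : RowOdd k) : RowDim (2 * k + 1) := by
  intro Q _ _ hs A Γ hE F _ _ ι _ _ Qf m hn hQ hres
  obtain ⟨Q', rfl, hnd⟩ := H883.Bridge.exists_quadraticForm hQ
  rcases GenOrth.normal_form (F := F) (Fintype.card ι) hnd (by rw [Module.finrank_fintype_fun_eq_card]) with ⟨k', hk, hs'⟩ |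
    ⟨k', hk, -⟩ | ⟨k', hk, -⟩
  · obtain rfl : k' = k := by omega
    have h2 := two_ne_of_sim hnd hs'
    have ho : Odd (Fintype.card F) := LieClassical.PomegaCard.odd_card_iff.2 h2
    obtain ⟨c, hc, j, hj⟩ := hs'
    obtain ⟨m', hm'⟩ := exists_orth (Q' := quadFormOdd k' F) m j.symm (inv_ne_zero hc) (fun v => by
      obtain ⟨w, rfl⟩ := j.surjective v
      rw [j.symm_apply_apply, hj, inv_mul_cancel_left₀ hc])
    exact h hs hE ho m' (hm' A hres)
  · omega
  · omega

theorem dim_of_even {n : ℕ} (hp : RowPlus n) (hm : RowMinus n) : RowDim n := by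
  intro Q _ _ hs A Γ hE F _ _ ι _ _ Qf m hn hQ hres
  let e : ι ≃ Fin n := Fintype.equivFinOfCardEq hn
  have hj : ∀ v, (fun w => Qf ((reLin F e).symm w)) (reLin F e v) = 1 * Qf v := fun v => by
    simp
  obtain ⟨m', hm'⟩ := exists_orth (Q' := fun w => Qf ((reLin F e).symm w)) m (reLin F e) one_ne_zero hj
  have hQ' : IsNondegenerateQuadraticForm (fun w => Qf ((reLin F e).symm w)) :=
    nondeg_map (reLin F e) one_ne_zero hj hQ
  by_cases hplus : IsPlusTypeOn (fun w => Qf ((reLin F e).symm w)) ⊤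
  · exact hp hs hE m' hQ' hplus (hm' A hres)
  · exact hm hs hE m' hQ' hplus (hm' A hres)

/-- **`OrthRes12` from the nine rows.** -/
theorem orthRes12_of (r7 : RowOdd 3) (r8p : RowPlus 8) (r8m : RowMinus 8) (r9 : RowOdd 4) (r10p : RowPlus 10)
    (r10m : RowMinus 10) (r11 : RowOdd 5) (r12p : RowPlus 12) (r12m : RowMinus 12) : OrthRes12 := by
  intro Q _ _ hs A Γ hE F _ _ ι _ _ Qf m h7 h12 hQ hres
  have d7 : RowDim 7 := dim_of_odd r7
  have d8 : RowDim 8 := dim_of_even r8p r8m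
  have d9 : RowDim 9 := dim_of_odd r9
  have d10 : RowDim 10 := dim_of_even r10p r10m
  have d11 : RowDim 11 := dim_of_odd r11
  have d12 : RowDim 12 := dim_of_even r12p r12m
  obtain h | h | h | h | h | h : Fintype.card ι = 7 ∨ Fintype.card ι = 8 ∨ Fintype.card ι = 9 ∨ Fintype.card ι = 10 ∨
    Fintype.card ι = 11 ∨ Fintype.card ι = 12 := by omega
  · exact d7 hs hE m h hQ hres
  · exact d8 hs hE m h hQ hres
  · exact d9 hs hE m h hQ hres
  · exact d10 hs hE m h hQ hres
  · exact d11 hs hE m h hQ hres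
  · exact d12 hs hE m h hQ hres

end Cfsg.Agent.H982.EP
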