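import Cfsg.Agent.H982.EP.OmRes
import Cfsg.Agent.H470.EPO.OwnPan
import Cfsg.Agent.H419.EP.Filt
import Cfsg.Agent.H793.PanG2
import Cfsg.Agent.KFacts.RgdFiltChev
import Cfsg.Agent.H638.G2Iso
import Cfsg.Agent.S1055
import Cfsg.Agent.H775.EP.ModelOmega

/-!
# S3499: `G₂(q)` in `Ω₇(q)`, `q` odd (helper982, from helper470's `own_pan`)
-/

set_option autoImplicit false

namespace Cfsg.Agent.H982.EP

open Subgroup Cfsg Cfsg.Geo Cfsg.Agent.H419.EP Cfsg.Agent.H284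
open scoped MatrixGroups Matrix

/-- `G₂(q)` in `Ω₇(q)` -/
def OwnG2 : Prop := ∀ {Q : Type} [Group Q] [Finite Q], IsSimpleGroup Q → ∀ {A : Subgroup Q}
    {Γ : Subgroup (MulAut Q)}, EPT A Γ → ∀ {F : Type} [Field F] [Fintype F], Odd (Fintype.card F) →
    ∀ (_ : Model Q (omegaGL (quadFormOdd 3 F))), HasSoc A (Lie.G2 F) → False

theorem ownG2 : OwnG2 := by
  intro Q _ _ hs A Γ hE F _ _ hodd m hS
  obtain ⟨e⟩ := Cfsg.Agent.H638.G2Iso.equiv (F := F)
  have hS' := hS.congr e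
  have h2 := H775.EP.two_ne_zero_of_odd hodd
  have hK : ∃ a : F, a ≠ 0 ∧ a ≠ 1 := ⟨-1, by simp, fun h => h2 (by linear_combination -h)⟩
  obtain ⟨hL, hna⟩ := Cfsg.Agent.S1055.result hK
  have hp : Fact (ringChar F).Prime := ⟨CharP.char_is_prime F _⟩
  have hQf := hasFilt_orth (H775.EP.nd_odd 3 F h2) (by rw [H775.EP.card_odd]) m
  have hLn : ∃ a b : ↥(Cfsg.Lie.chevG2.group F), a * b ≠ b * a := by
    by_contra hcon
    push Not at hcon
    exact hna ⟨⟨hcon⟩⟩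
  have hne : ringChar F ≠ 2 := by
    intro h
    apply h2
    have := (ringChar.spec F 2).2 (by rw [h])
    exact_mod_cast this
  exact hne (H470.EPO.own_pan (p := ringChar F) le_rfl hQf hE hLn hS' (H793.pan_g2 F (ringChar F))
    (KFacts.RgdFiltChev.hasFilt_G2 F (ringChar F))).1

end Cfsg.Agent.H982.EP
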