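import Cfsg.Agent.H419.EP.Big
import Cfsg.Agent.GenOrth.Normal

/-!
# S3499: transport of the orthogonal residual class along a linear similarity (helper982)
-/

set_option autoImplicit false

namespace Cfsg.Agent.H982.EP

open Subgroup Cfsg Cfsg.Geo Cfsg.Agent.H419.EP Cfsg.Agent.H284
open scoped MatrixGroups Matrix

variable {ι κ : Type} [Fintype ι] [DecidableEq ι] [Fintype κ] [DecidableEq κ] {F : Type*} [Field F]

/-- conjugation of matrices by a linear equivalence -/
noncomputable def matT (j : (ι → F) ≃ₗ[F] (κ → F)) : Matrix ι ι F ≃ₐ[F] Matrix κ κ F :=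
  (Matrix.toLinAlgEquiv').trans ((j.conjAlgEquiv F).trans LinearMap.toMatrixAlgEquiv')

theorem matT_mulVec (j : (ι → F) ≃ₗ[F] (κ → F)) (M : Matrix ι ι F) (v : ι → F) :
    (matT j M) *ᵥ (j v) = j (M *ᵥ v) := by
  have h : matT j M = LinearMap.toMatrixAlgEquiv' (j.conjAlgEquiv F (Matrix.toLinAlgEquiv' M)) := rfl
  rw [h, ← Matrix.toLinAlgEquiv'_apply, Matrix.toLinAlgEquiv'_toMatrixAlgEquiv', LinearEquiv.conjAlgEquiv_apply_apply,
    j.symm_apply_apply, Matrix.toLinAlgEquiv'_apply]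

/-- conjugation of invertible matrices by a linear equivalence -/
noncomputable def glT (j : (ι → F) ≃ₗ[F] (κ → F)) : GL ι F ≃* GL κ F :=
  Units.mapEquiv (matT j).toMulEquiv

theorem coe_glT (j : (ι → F) ≃ₗ[F] (κ → F)) (g : GL ι F) :
    ((glT j g : GL κ F) : Matrix κ κ F) = matT j (g : Matrix ι ι F) := rfl

theorem glT_mulVec (j : (ι → F) ≃ₗ[F] (κ → F)) (g : GL ι F) (v : ι → F) :
    ((glT j g : GL κ F) : Matrix κ κ F) *ᵥ (j v) = j ((g : Matrix ι ι F) *ᵥ v) := matT_mulVec j _ v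

theorem glT_mulVec' (j : (ι → F) ≃ₗ[F] (κ → F)) (g : GL ι F) (v : κ → F) :
    ((glT j g : GL κ F) : Matrix κ κ F) *ᵥ v = j ((g : Matrix ι ι F) *ᵥ (j.symm v)) := by
  rw [← glT_mulVec, j.apply_symm_apply]

theorem glT_scalar (j : (ι → F) ≃ₗ[F] (κ → F)) (g : GL ι F) :
    glT j g ∈ scalars κ F ↔ g ∈ scalars ι F := by
  rw [mem_scalars_iff, mem_scalars_iff]
  apply exists_congr
  intro c
  rw [coe_glT]
  constructor
  · intro h
    apply (matT j).injective
    rw [h, map_smul, map_one]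
  · intro h
    rw [h, map_smul, map_one]

theorem map_scalars (j : (ι → F) ≃ₗ[F] (κ → F)) : (scalars ι F).map (glT j).toMonoidHom = scalars κ F := by
  ext x
  constructor
  · rintro ⟨g, hg, rfl⟩
    exact (glT_scalar j g).2 hg
  · intro hx
    obtain ⟨g, rfl⟩ := (glT j).surjective x
    exact ⟨g, (glT_scalar j g).1 hx, rfl⟩

theorem mem_map_glT (j : (ι → F) ≃ₗ[F] (κ → F)) (P : Subgroup (GL ι F)) (g : GL ι F) :
    glT j g ∈ P.map (glT j).toMonoidHom ↔ g ∈ P := by
  constructor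
  · rintro ⟨x, hx, e⟩
    have : x = g := (glT j).injective e
    exact this ▸ hx
  · intro h
    exact ⟨g, h, rfl⟩

theorem mem_matrixSet_map {j : (ι → F) ≃ₗ[F] (κ → F)} {P : Subgroup (GL ι F)} {s : Matrix κ κ F}
    (hs : s ∈ matrixSet (P.map (glT j).toMonoidHom)) : ∃ t ∈ matrixSet P, s = matT j t := by
  obtain ⟨_, ⟨x, hx, rfl⟩, rfl⟩ := hs
  exact ⟨_, ⟨x, hx, rfl⟩, rfl⟩

theorem matrixSet_map {j : (ι → F) ≃ₗ[F] (κ → F)} {P : Subgroup (GL ι F)} {t : Matrix ι ι F}
    (ht : t ∈ matrixSet P) : matT j t ∈ matrixSet (P.map (glT j).toMonoidHom) := by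
  obtain ⟨x, hx, rfl⟩ := ht
  exact ⟨_, ⟨x, hx, rfl⟩, rfl⟩

theorem absIrred_map (j : (ι → F) ≃ₗ[F] (κ → F)) {P : Subgroup (GL ι F)} (h : ActsAbsolutelyIrreducibly (matrixSet P)) :
    ActsAbsolutelyIrreducibly (matrixSet (P.map (glT j).toMonoidHom)) := by
  constructor
  · intro W hW
    have h1 := h.1 (W.comap j.toLinearMap) (fun s hs => by
      rintro _ ⟨v, hv, rfl⟩
      have h2 := hW _ (matrixSet_map (j := j) hs) ⟨j v, hv, rfl⟩
      rw [Matrix.toLin'_apply, matT_mulVec] at h2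
      exact h2)
    rcases h1 with h1 | h1
    · left
      rw [Submodule.eq_bot_iff] at h1 ⊢
      intro w hw
      have h3 := h1 (j.symm w) (by
        show j (j.symm w) ∈ W
        rw [j.apply_symm_apply]
        exact hw)
      rw [← j.apply_symm_apply w, h3, map_zero]
    · right
      rw [Submodule.eq_top_iff'] at h1 ⊢
      intro w
      have h3 := h1 (j.symm w)
      have h4 : j (j.symm w) ∈ W := h3
      rwa [j.apply_symm_apply] at h4
  · intro M hM
    obtain ⟨M', rfl⟩ := (matT j).surjective M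
    obtain ⟨c, hc⟩ := h.2 M' (fun s hs => by
      apply (matT j).injective
      rw [map_mul, map_mul]
      exact hM _ (matrixSet_map hs))
    exact ⟨c, by rw [hc, map_smul, map_one]⟩

/-- the reindexing as a linear equivalence -/
noncomputable def reLin (F : Type*) [Field F] (e : ι ≃ κ) : (ι → F) ≃ₗ[F] (κ → F) := LinearEquiv.funCongrLeft F F e.symm

theorem matT_reLin (e : ι ≃ κ) (M : Matrix ι ι F) (a b : κ) : matT (reLin F e) M a b = M (e.symm a) (e.symm b) := by
  have h := congrFun (matT_mulVec (reLin F e) M (Pi.single (e.symm b) 1)) a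
  have h1 : (reLin F e) (Pi.single (e.symm b) (1 : F)) = Pi.single b 1 := by
    ext x
    simp only [reLin, LinearEquiv.funCongrLeft_apply, LinearMap.funLeft_apply]
    rcases eq_or_ne x b with rfl | hx
    · simp
    · rw [Pi.single_eq_of_ne hx, Pi.single_eq_of_ne]
      exact fun h => hx (e.symm.injective h)
  rw [h1] at h
  simp only [reLin, LinearEquiv.funCongrLeft_apply, LinearMap.funLeft_apply] at h
  rw [Matrix.mulVec_single_one, Matrix.mulVec_single_one] at h
  exact h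

theorem coe_glT_reLin (e : ι ≃ κ) (g : GL ι F) (a b : κ) :
    ((glT (reLin F e) g : GL κ F) : Matrix κ κ F) a b = (g : Matrix ι ι F) (e.symm a) (e.symm b) := matT_reLin e _ a b

theorem ext_mulVec {M N : Matrix ι ι F} (h : ∀ v, M *ᵥ v = N *ᵥ v) : M = N := by
  ext a b
  have := congrFun (h (Pi.single b 1)) a
  rwa [Matrix.mulVec_single_one, Matrix.mulVec_single_one] at this

theorem glT_trans {μ : Type} [Fintype μ] [DecidableEq μ] (j : (ι → F) ≃ₗ[F] (κ → F)) (k : (κ → F) ≃ₗ[F] (μ → F))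
    (g : GL ι F) : glT (j.trans k) g = glT k (glT j g) := by
  apply Units.ext
  apply ext_mulVec
  intro v
  rw [glT_mulVec', glT_mulVec', glT_mulVec']
  simp

theorem subfield_map (j : (ι → F) ≃ₗ[F] (κ → F)) {P : Subgroup (GL ι F)} (F₀ : Subfield F)
    (h : RealisableOver F₀ (matrixSet (P.map (glT j).toMonoidHom))) : RealisableOver F₀ (matrixSet P) := by
  obtain ⟨B, hB⟩ := h
  have hc : Fintype.card ι = Fintype.card κ := by
    have := LinearEquiv.finrank_eq j
    rwa [Module.finrank_fintype_fun_eq_card, Module.finrank_fintype_fun_eq_card] at this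
  let e : ι ≃ κ := Fintype.equivOfCardEq hc
  -- the matrix `T` of `reLin e ∘ j⁻¹`
  let T0 : (κ → F) ≃ₗ[F] (κ → F) := j.symm.trans (reLin F e)
  let T : GL κ F := Units.mk (LinearMap.toMatrix' T0.toLinearMap) (LinearMap.toMatrix' T0.symm.toLinearMap)
    (by rw [← LinearMap.toMatrix'_comp]; simp)
    (by rw [← LinearMap.toMatrix'_comp]; simp)
  have hT : ∀ v, (T : Matrix κ κ F) *ᵥ v = T0 v := fun v => by
    show (LinearMap.toMatrix' T0.toLinearMap) *ᵥ v = _
    rw [LinearMap.toMatrix'_mulVec]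
    rfl
  have hT' : ∀ v, ((T⁻¹ : GL κ F) : Matrix κ κ F) *ᵥ v = T0.symm v := fun v => by
    show (LinearMap.toMatrix' T0.symm.toLinearMap) *ᵥ v = _
    rw [LinearMap.toMatrix'_mulVec]
    rfl
  have key : ∀ g : GL ι F, glT (reLin F e) g = T * glT j g * T⁻¹ := by
    intro g
    apply Units.ext
    apply ext_mulVec
    intro v
    rw [Units.val_mul, Units.val_mul, ← Matrix.mulVec_mulVec, ← Matrix.mulVec_mulVec, hT, hT', glT_mulVec',
      glT_mulVec']
    simp [T0]
  refine ⟨(glT (reLin F e)).symm (B * T⁻¹), ?_⟩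
  rintro _ ⟨g, hg, rfl⟩ a b
  have h1 := hB _ ⟨_, ⟨g, hg, rfl⟩, rfl⟩ (e a) (e b)
  have h2 : glT (reLin F e) ((glT (reLin F e)).symm (B * T⁻¹) * g * ((glT (reLin F e)).symm (B * T⁻¹))⁻¹) =
      B * glT j g * B⁻¹ := by
    rw [map_mul, map_mul, map_inv, MulEquiv.apply_symm_apply, key]
    group
  have h3 := coe_glT_reLin e ((glT (reLin F e)).symm (B * T⁻¹) * g * ((glT (reLin F e)).symm (B * T⁻¹))⁻¹) (e a) (e b)
  rw [h2, e.symm_apply_apply, e.symm_apply_apply] at h3
  have h4 : (((glT (reLin F e)).symm (B * T⁻¹) : GL ι F) : Matrix ι ι F) * (g : Matrix ι ι F) *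
      (((((glT (reLin F e)).symm (B * T⁻¹))⁻¹ : GL ι F)) : Matrix ι ι F) =
      (((glT (reLin F e)).symm (B * T⁻¹) * g * ((glT (reLin F e)).symm (B * T⁻¹))⁻¹ : GL ι F) : Matrix ι ι F) := by
    rw [Units.val_mul, Units.val_mul]
  show ((((glT (reLin F e)).symm (B * T⁻¹) : GL ι F) : Matrix ι ι F) * (g : Matrix ι ι F) *
      (((((glT (reLin F e)).symm (B * T⁻¹))⁻¹ : GL ι F)) : Matrix ι ι F)) a b ∈ F₀
  rw [h4, ← h3]
  rw [Units.val_mul, Units.val_mul]
  exact h1

/-- the restriction to a subgroup -/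
noncomputable def eqv (j : (ι → F) ≃ₗ[F] (κ → F)) (P : Subgroup (GL ι F)) :
    P ≃* (P.map (glT j).toMonoidHom : Subgroup (GL κ F)) :=
  P.equivMapOfInjective (glT j).toMonoidHom (show Function.Injective (glT j).toMonoidHom from (glT j).injective)

theorem coe_eqv (j : (ι → F) ≃ₗ[F] (κ → F)) (P : Subgroup (GL ι F)) (x : P) :
    ((eqv j P x : (P.map (glT j).toMonoidHom : Subgroup (GL κ F))) : GL κ F) = glT j x := rfl

/-- the quotient by the scalars -/
noncomputable def quotT (j : (ι → F) ≃ₗ[F] (κ → F)) (P : Subgroup (GL ι F)) :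
    (P ⧸ (scalars ι F).subgroupOf P) ≃*
      ((P.map (glT j).toMonoidHom : Subgroup (GL κ F)) ⧸ (scalars κ F).subgroupOf (P.map (glT j).toMonoidHom)) :=
  QuotientGroup.congr _ _ (eqv j P) (by
    ext x
    obtain ⟨y, rfl⟩ := (eqv j P).surjective x
    rw [Subgroup.mem_subgroupOf, coe_eqv, glT_scalar]
    constructor
    · rintro ⟨z, hz, e⟩
      have : z = y := (eqv j P).injective e
      subst this
      exact hz
    · intro h
      exact ⟨y, h, rfl⟩)

theorem core_map (j : (ι → F) ≃ₗ[F] (κ → F)) {H P : Subgroup (GL ι F)} (h : IsResidualCore H P) :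
    IsResidualCore (H.map (glT j).toMonoidHom) (P.map (glT j).toMonoidHom) where
  le := Subgroup.map_mono h.le
  normal := by
    rintro _ ⟨a, ha, rfl⟩ _ ⟨x, hx, rfl⟩
    exact ⟨a * x * a⁻¹, h.normal a ha x hx, by rw [map_mul, map_mul, map_inv]⟩
  perfect := by rw [← Subgroup.map_commutator, h.perfect]
  simple := by
    have := h.simple
    exact (quotT j P).symm.isSimpleGroup
  nonabelian := by
    intro hc
    apply h.nonabelian
    constructor
    constructor
    intro a b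
    apply (quotT j P).injective
    rw [map_mul, map_mul]
    exact hc.is_comm.comm _ _
  centralizer_scalar := by
    rintro _ ⟨a, ha, rfl⟩ hx
    refine (glT_scalar j a).2 (h.centralizer_scalar a ha fun x hx' => ?_)
    have h1 := hx _ ⟨x, hx', rfl⟩
    rw [← glT_scalar j, map_mul, map_mul, map_mul, map_inv, map_inv]
    exact h1
  absIrred := absIrred_map j h.absIrred
  no_subfield := fun F₀ hF hR => h.no_subfield F₀ hF (subfield_map j F₀ hR)

theorem noUnitary_map (j : (ι → F) ≃ₗ[F] (κ → F)) {P : Subgroup (GL ι F)}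
    (h : ¬ ∃ (σ : F ≃+* F) (f : (ι → F) → (ι → F) → F), IsUnitaryForm σ f ∧ FixesForm (matrixSet P) f) :
    ¬ ∃ (σ : F ≃+* F) (f : (κ → F) → (κ → F) → F), IsUnitaryForm σ f ∧
      FixesForm (matrixSet (P.map (glT j).toMonoidHom)) f := by
  rintro ⟨σ, f, hf, hfix⟩
  refine h ⟨σ, fun u v => f (j u) (j v), ⟨hf.ne_refl, hf.involutive, ?_, ?_, ?_, ?_⟩, ?_⟩
  · intro x y v
    show f (j (x + y)) (j v) = _
    rw [map_add]
    exact hf.add_left _ _ _
  · intro c x v
    show f (j (c • x)) (j v) = _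
    rw [map_smul]
    exact hf.smul_left _ _ _
  · intro v w
    exact hf.herm _ _
  · intro v hv
    obtain ⟨⟨x, hx⟩, ⟨y, hy⟩⟩ := hf.nondegenerate (j v) (by rwa [Ne, map_eq_zero_iff j j.injective])
    refine ⟨⟨j.symm x, ?_⟩, ⟨j.symm y, ?_⟩⟩
    · show f (j (j.symm x)) (j v) ≠ 0
      rwa [j.apply_symm_apply]
    · show f (j v) (j (j.symm y)) ≠ 0
      rwa [j.apply_symm_apply]
  · intro s hs u v
    show f (j (s *ᵥ u)) (j (s *ᵥ v)) = f (j u) (j v)
    rw [← matT_mulVec, ← matT_mulVec]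
    exact hfix _ (matrixSet_map hs) _ _

theorem res_map (j : (ι → F) ≃ₗ[F] (κ → F)) {H : Subgroup (GL ι F)} (h : InOrthogonalResidualClass H) :
    InOrthogonalResidualClass (H.map (glT j).toMonoidHom) := by
  obtain ⟨P, hP, hu⟩ := h
  exact ⟨_, core_map j hP, noUnitary_map j hu⟩

/-- the transported model -/
noncomputable def modelT {Q : Type*} [Group Q] {S : Subgroup (GL ι F)} (m : Model Q S) (j : (ι → F) ≃ₗ[F] (κ → F)) :
    Model Q (S.map (glT j).toMonoidHom) where
  π := m.π.comp (eqv j S).symm.toMonoidHom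
  surj := m.surj.comp (eqv j S).symm.surjective
  ker := fun s => by
    obtain ⟨t, rfl⟩ := (eqv j S).surjective s
    show m.π ((eqv j S).symm ((eqv j S) t)) = 1 ↔ _
    rw [MulEquiv.symm_apply_apply, m.ker, coe_eqv, glT_scalar]

theorem modelT_hat {Q : Type*} [Group Q] {S : Subgroup (GL ι F)} (m : Model Q S) (j : (ι → F) ≃ₗ[F] (κ → F))
    (A : Subgroup Q) : (modelT m j).hat A = (m.hat A).map (glT j).toMonoidHom := by
  ext x
  obtain ⟨g, rfl⟩ := (glT j).surjective x
  rw [mem_map_glT, Model.mem_hat, Model.mem_hat]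
  have key : ∀ hg : g ∈ S, (modelT m j).π ⟨glT j g, (mem_map_glT j S g).2 hg⟩ = m.π ⟨g, hg⟩ := by
    intro hg
    have h1 : eqv j S ⟨g, hg⟩ = ⟨glT j g, (mem_map_glT j S g).2 hg⟩ := by
      apply Subtype.ext
      exact coe_eqv j S ⟨g, hg⟩
    rw [← h1]
    exact congrArg m.π ((eqv j S).symm_apply_apply ⟨g, hg⟩)
  constructor
  · rintro ⟨hg, h⟩
    have hg' := (mem_map_glT j S g).1 hg
    exact ⟨hg', by rw [← key hg']; exact h⟩
  · rintro ⟨hg, h⟩
    exact ⟨(mem_map_glT j S g).2 hg, by rw [key hg]; exact h⟩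

theorem mem_isometryGroup {Q : (ι → F) → F} {g : GL ι F} :
    g ∈ isometryGroup F Q ↔ ∀ v, Q ((g : Matrix ι ι F) *ᵥ v) = Q v :=
  ⟨fun h v => h v v, fun h v _ => h v⟩

theorem map_isometryGroup (j : (ι → F) ≃ₗ[F] (κ → F)) {Q : (ι → F) → F} {Q' : (κ → F) → F} {c : F} (hc : c ≠ 0)
    (hj : ∀ v, Q' (j v) = c * Q v) : (isometryGroup F Q).map (glT j).toMonoidHom = isometryGroup F Q' := by
  ext x
  obtain ⟨g, rfl⟩ := (glT j).surjective x
  rw [mem_map_glT, mem_isometryGroup, mem_isometryGroup]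
  constructor
  · intro h v
    obtain ⟨w, rfl⟩ := j.surjective v
    rw [glT_mulVec, hj, hj, h]
  · intro h v
    have h1 := h (j v)
    rw [glT_mulVec, hj, hj] at h1
    exact mul_left_cancel₀ hc h1

theorem omegaGL_eq (Q : (ι → F) → F) : omegaGL Q = ⁅isometryGroup F Q, isometryGroup F Q⁆ := by
  rw [omegaGL, Omega, commutator_def, Subgroup.map_commutator, ← MonoidHom.range_eq_map, Subgroup.range_subtype]

theorem map_omegaGL (j : (ι → F) ≃ₗ[F] (κ → F)) {Q : (ι → F) → F} {Q' : (κ → F) → F} {c : F} (hc : c ≠ 0)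
    (hj : ∀ v, Q' (j v) = c * Q v) : (omegaGL Q).map (glT j).toMonoidHom = omegaGL Q' := by
  rw [omegaGL_eq, omegaGL_eq, Subgroup.map_commutator, map_isometryGroup j hc hj]

theorem exists_model {Q : Type*} [Group Q] {S : Subgroup (GL ι F)} {S' : Subgroup (GL κ F)} (m : Model Q S)
    (j : (ι → F) ≃ₗ[F] (κ → F)) (h : S.map (glT j).toMonoidHom = S') :
    ∃ m' : Model Q S', ∀ A : Subgroup Q, m'.hat A = (m.hat A).map (glT j).toMonoidHom := by
  subst h
  exact ⟨modelT m j, modelT_hat m j⟩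

/-- **Transport of the orthogonal residual class along a similarity.** -/
theorem exists_orth {Q : Type*} [Group Q] {Qf : (ι → F) → F} {Q' : (κ → F) → F} (m : Model Q (omegaGL Qf))
    (j : (ι → F) ≃ₗ[F] (κ → F)) {c : F} (hc : c ≠ 0) (hj : ∀ v, Q' (j v) = c * Qf v) :
    ∃ m' : Model Q (omegaGL Q'), ∀ A : Subgroup Q, InOrthogonalResidualClass (m.hat A) →
      InOrthogonalResidualClass (m'.hat A) := by
  obtain ⟨m', h⟩ := exists_model m j (map_omegaGL j hc hj)
  exact ⟨m', fun A hA => by rw [h]; exact res_map j hA⟩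

omit [Fintype ι] [DecidableEq ι] [Fintype κ] [DecidableEq κ] in
theorem polar_map (j : (ι → F) ≃ₗ[F] (κ → F)) {Q : (ι → F) → F} {Q' : (κ → F) → F} {c : F}
    (hj : ∀ v, Q' (j v) = c * Q v) (x y : κ → F) :
    QuadraticMap.polar Q' x y = c * QuadraticMap.polar Q (j.symm x) (j.symm y) := by
  obtain ⟨x, rfl⟩ := j.surjective x
  obtain ⟨y, rfl⟩ := j.surjective y
  rw [QuadraticMap.polar, QuadraticMap.polar, ← map_add, hj, hj, hj, j.symm_apply_apply, j.symm_apply_apply]
  ring

omit [Fintype ι] [DecidableEq ι] [Fintype κ] [DecidableEq κ] in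
theorem nondeg_map (j : (ι → F) ≃ₗ[F] (κ → F)) {Q : (ι → F) → F} {Q' : (κ → F) → F} {c : F} (hc : c ≠ 0)
    (hj : ∀ v, Q' (j v) = c * Q v) (h : IsNondegenerateQuadraticForm Q) : IsNondegenerateQuadraticForm Q' where
  smul := by
    intro a v
    obtain ⟨v, rfl⟩ := j.surjective v
    rw [← map_smul, hj, hj, h.smul]
    ring
  polar_bilinear :=
    { add_left := fun x y v => by
        rw [polar_map j hj, polar_map j hj, polar_map j hj, map_add, h.polar_bilinear.add_left]
        ring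
      smul_left := fun a x v => by
        rw [polar_map j hj, polar_map j hj, map_smul, h.polar_bilinear.smul_left]
        ring
      add_right := fun v x y => by
        rw [polar_map j hj, polar_map j hj, polar_map j hj, map_add, h.polar_bilinear.add_right]
        ring
      smul_right := fun a v x => by
        rw [polar_map j hj, polar_map j hj, map_smul, h.polar_bilinear.smul_right]
        ring }
  nondegenerate := by
    intro v hv
    obtain ⟨⟨x, hx⟩, ⟨y, hy⟩⟩ := h.nondegenerate (j.symm v) (by rwa [Ne, map_eq_zero_iff j.symm j.symm.injective])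
    refine ⟨⟨j x, ?_⟩, ⟨j y, ?_⟩⟩
    · rw [polar_map j hj, j.symm_apply_apply]
      exact mul_ne_zero hc hx
    · rw [polar_map j hj, j.symm_apply_apply]
      exact mul_ne_zero hc hy

omit [Fintype ι] [DecidableEq ι] [Fintype κ] [DecidableEq κ] in
theorem plus_map (j : (ι → F) ≃ₗ[F] (κ → F)) {Q : (ι → F) → F} {Q' : (κ → F) → F} {c : F}
    (hj : ∀ v, Q' (j v) = c * Q v) (h : IsPlusTypeOn Q ⊤) : IsPlusTypeOn Q' ⊤ := by
  obtain ⟨U, -, hU, hd⟩ := h
  refine ⟨U.map j.toLinearMap, le_top, ?_, ?_⟩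
  · rintro _ ⟨u, hu, rfl⟩
    show Q' (j u) = 0
    rw [hj, hU u hu, mul_zero]
  · have h1 : Module.finrank F (U.map j.toLinearMap) = Module.finrank F U := LinearEquiv.finrank_map_eq j U
    rw [h1, finrank_top, ← LinearEquiv.finrank_eq j, hd, finrank_top]

end Cfsg.Agent.H982.EP
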